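import Cfsg.Agent.H995.IMBRow

/-!
# S4844 (TEAM PSQ), the Baby Monster (helper189)

* `sq_b` : `p` odd, `p ≠ 7`, `p ^ 2 ∣ |B|`: some irreducible character has degree divisible by `p ^ 2`
  (`96255 = 3^3 · 5 · 23 · 31`, `9458750 = 2 · 5^4 · 7 · 23 · 47`).
-/

set_option autoImplicit false

open Cfsg

namespace Cfsg.Agent.H189.Psq

open Cfsg.Agent.H995.IMB

universe u

/-- **The Baby Monster**, `p ≠ 7`. -/
theorem sq_b {S : Type u} [Group S] (h : Cfsg.Spor.IsoB S) {p : ℕ} [hp : Fact p.Prime] (hp2 : p ≠ 2) (hp7 : p ≠ 7)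
    (hd : p ^ 2 ∣ Nat.card S) : Cfsg.Agent.H33.IM (p ^ 2) S := by
  rw [card_of h] at hd
  have hps := mem_ps hp.out ((dvd_pow_self p two_ne_zero).trans hd)
  have key : ∀ d ∈ ds, p ^ 2 ∣ d → Cfsg.Agent.H33.IM (p ^ 2) S := fun d hd hpd => by
    obtain ⟨χ, -, hχ⟩ := deg_b h hd
    exact ⟨χ, by rw [hχ]; exact hpd⟩
  have h2 : ∀ p ∈ ps, p ≠ 2 → p ≠ 7 → p ^ 2 ∣ 4154781481226426191177580544000000 → ∃ d ∈ ds, p ^ 2 ∣ d := by
    decide +kernel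
  obtain ⟨d, hd, hpd⟩ := h2 p hps hp2 hp7 hd
  exact key d hd hpd

end Cfsg.Agent.H189.Psq
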